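import Mathlib
import Cfsg.Agent.Lib.Helper3.NormalSeries

set_option autoImplicit false
universe u

namespace Cfsg.Agent.Lib.Helper70

/-- Lifting a `p`-subgroup of a quotient to a `p`-subgroup of controlled order. -/
theorem exists_pgroup_lift {G : Type*} [Group G] [Finite G] {p : ℕ} [Fact p.Prime]
    (N : Subgroup G) [N.Normal] (X : Subgroup (G ⧸ N)) (hX : IsPGroup p X) :
    ∃ S : Subgroup G, IsPGroup p S ∧ S.map (QuotientGroup.mk' N) = X ∧
      Nat.card S = p ^ (Nat.card X * Nat.card N).factorization p := by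
  set Y := X.comap (QuotientGroup.mk' N) with hY
  obtain ⟨S0⟩ : Nonempty (Sylow p Y) := inferInstance
  let φ : Y →* X := (QuotientGroup.mk' N).subgroupComap X
  have hφ : Function.Surjective φ :=
    MonoidHom.subgroupComap_surjective_of_surjective _ X (QuotientGroup.mk'_surjective N)
  have h1 : ((S0.mapSurjective hφ : Sylow p X) : Subgroup X) = ⊤ := by
    have := (S0.mapSurjective hφ).is_maximal' (Q := ⊤)
      (hX.of_equiv Subgroup.topEquiv.symm) le_top
    exact this.symm
  rw [Sylow.coe_mapSurjective] at h1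
  let e := (S0 : Subgroup Y).equivMapOfInjective Y.subtype Y.subtype_injective
  refine ⟨(S0 : Subgroup Y).map Y.subtype, S0.2.map _, ?_, ?_⟩
  · apply le_antisymm
    · rintro _ ⟨_, ⟨s, hs, rfl⟩, rfl⟩
      exact s.2
    · intro x hx
      have h2 : (⟨x, hx⟩ : X) ∈ (S0 : Subgroup Y).map φ := by rw [h1]; exact Subgroup.mem_top _
      obtain ⟨s, hs, hsx⟩ := h2
      exact ⟨s.1, ⟨s, hs, rfl⟩, congrArg Subtype.val hsx⟩
  · rw [← Nat.card_congr e.toEquiv, S0.card_eq_multiplicity, hY,
      Cfsg.Agent.Lib.Helper3.card_comap_mk']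

/-- "`p`-subgroups of equal order are conjugate" passes to quotients. -/
theorem conj_property_quotient {G : Type*} [Group G] [Finite G] {p : ℕ} [Fact p.Prime]
    (hC : ∀ H K : Subgroup G, IsPGroup p H → IsPGroup p K → Nat.card H = Nat.card K →
      ∃ g : G, K = H.map (MulAut.conj g).toMonoidHom) (N : Subgroup G) [N.Normal] :
    ∀ H K : Subgroup (G ⧸ N), IsPGroup p H → IsPGroup p K → Nat.card H = Nat.card K →
      ∃ g : G ⧸ N, K = H.map (MulAut.conj g).toMonoidHom := by
  intro H K hH hK hcard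
  obtain ⟨S, hS, hSH, hScard⟩ := exists_pgroup_lift N H hH
  obtain ⟨T, hT, hTK, hTcard⟩ := exists_pgroup_lift N K hK
  obtain ⟨g, hg⟩ := hC S T hS hT (by rw [hScard, hTcard, hcard])
  refine ⟨QuotientGroup.mk' N g, ?_⟩
  rw [← hTK, ← hSH, hg, Subgroup.map_map, Subgroup.map_map]
  congr 1

end Cfsg.Agent.Lib.Helper70
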