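import Mathlib
import Cfsg.Agent.Lib.Helper3.NormalSeries
import Cfsg.Agent.Lib.Helper1.PGroup
import Cfsg.Agent.Lib.Helper12.Card
import Cfsg.Agent.Lib.Helper67.PGroupAux
import Cfsg.Agent.Lib.Helper70.Kulakoff

set_option autoImplicit false
universe u

namespace Cfsg.Agent.Lib.Helper70
open QuaternionGroup in
/-- the parity character of a generalized quaternion group of even parameter -/
def quatParity (N : ℕ) (hN : 2 ∣ N) : QuaternionGroup N →* Multiplicative (ZMod 2) where
  toFun x := match x with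
    | a i => Multiplicative.ofAdd (ZMod.castHom (Dvd.intro N rfl : 2 ∣ 2 * N) (ZMod 2) i)
    | xa i => Multiplicative.ofAdd (ZMod.castHom (Dvd.intro N rfl : 2 ∣ 2 * N) (ZMod 2) i)
  map_one' := by
    rw [one_def]
    simp
  map_mul' x y := by
    have hneg : ∀ t : ZMod 2, -t = t := by decide
    have hN0 : ((N : ℕ) : ZMod 2) = 0 := (ZMod.natCast_eq_zero_iff N 2).mpr hN
    rcases x with i | i <;> rcases y with j | j
    · simp only [a_mul_a, map_add, ofAdd_add]
    · simp only [a_mul_xa]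
      rw [sub_eq_add_neg, map_add, map_neg, hneg, ofAdd_add, mul_comm]
    · simp only [xa_mul_a, map_add, ofAdd_add]
    · simp only [xa_mul_xa]
      have h1 : (ZMod.castHom (Dvd.intro N rfl : 2 ∣ 2 * N) (ZMod 2)) ((N : ZMod (2 * N)) + j - i) =
          (ZMod.castHom (Dvd.intro N rfl : 2 ∣ 2 * N) (ZMod 2)) i +
          (ZMod.castHom (Dvd.intro N rfl : 2 ∣ 2 * N) (ZMod 2)) j := by
        rw [map_sub, map_add, map_natCast, hN0, zero_add, sub_eq_add_neg, hneg, add_comm]
      rw [h1, ofAdd_add]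

open QuaternionGroup in
theorem quaternion_subgroups (n : ℕ) (hn : 2 ≤ n) :
    ∃ A B : Subgroup (QuaternionGroup (2 ^ n)), Nat.card A = Nat.card B ∧ IsMulCommutative A ∧
      ¬ IsMulCommutative B := by
  set N := 2 ^ n with hN
  have hN2 : 2 ∣ N := dvd_pow_self 2 (by omega)
  have hN4 : 4 ≤ N := by
    calc 4 = 2 ^ 2 := by norm_num
      _ ≤ 2 ^ n := Nat.pow_le_pow_right (by norm_num) hn
  have : NeZero N := ⟨by omega⟩
  let χ := quatParity N hN2
  have hsurj : Function.Surjective χ := by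
    intro t
    refine ⟨a ((Multiplicative.toAdd t).val : ℕ), ?_⟩
    change Multiplicative.ofAdd (ZMod.castHom (Dvd.intro N rfl : 2 ∣ 2 * N) (ZMod 2) _) = t
    simp
  have hidx : χ.ker.index = 2 := by
    rw [Subgroup.index_ker, MonoidHom.range_eq_top.mpr hsurj, Subgroup.card_top]
    simp
  have hcard : Nat.card (QuaternionGroup N) = 4 * N := by
    rw [Nat.card_eq_fintype_card, QuaternionGroup.card]
  refine ⟨Subgroup.zpowers (a 1), χ.ker, ?_, inferInstance, ?_⟩
  · rw [Nat.card_zpowers, orderOf_a_one]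
    have := χ.ker.card_mul_index
    rw [hidx, hcard] at this
    omega
  · intro hcomm
    have h1 : (a 2 : QuaternionGroup N) ∈ χ.ker := by
      rw [MonoidHom.mem_ker]
      change Multiplicative.ofAdd (ZMod.castHom (Dvd.intro N rfl : 2 ∣ 2 * N) (ZMod 2) 2) = 1
      rw [map_ofNat]
      rfl
    have h2 : (xa 0 : QuaternionGroup N) ∈ χ.ker := by
      rw [MonoidHom.mem_ker]
      change Multiplicative.ofAdd (ZMod.castHom (Dvd.intro N rfl : 2 ∣ 2 * N) (ZMod 2) 0) = 1
      rw [map_zero]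
      rfl
    have h3 := congrArg Subtype.val (hcomm.is_comm.comm (⟨_, h1⟩ : χ.ker) ⟨_, h2⟩)
    simp only [Subgroup.coe_mul, a_mul_xa, xa_mul_a, zero_sub, zero_add] at h3
    have h4 : (-2 : ZMod (2 * N)) = 2 := by
      injection h3
    have h5 : ((4 : ℕ) : ZMod (2 * N)) = 0 := by
      have : (4 : ZMod (2 * N)) = 2 - (-2) := by ring
      push_cast
      rw [this, h4]; ring
    rw [ZMod.natCast_eq_zero_iff] at h5
    have := Nat.le_of_dvd (by norm_num) h5
    omega


theorem isMulCommutative_of_card_le_sq {B : Type*} [Group B] {p j : ℕ} [Fact p.Prime]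
    (hB : Nat.card B = p ^ j) (hj : j ≤ 2) : IsMulCommutative B := by
  have hp : p.Prime := Fact.out
  interval_cases j
  · rw [pow_zero] at hB
    have : Subsingleton B := (Nat.card_eq_one_iff_unique.mp hB).1
    exact ⟨⟨fun a b => Subsingleton.elim _ _⟩⟩
  · rw [pow_one] at hB
    have : IsCyclic B := isCyclic_of_prime_card hB
    exact ⟨⟨fun a b => IsCyclic.commGroup.mul_comm a b⟩⟩
  · exact IsPGroup.isMulCommutative_of_card_eq_prime_sq hB

theorem zpowers_le_normalizer_of_commute {Q : Type*} [Group Q] {u v : Q} (h : Commute u v) :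
    Subgroup.zpowers u ≤ Subgroup.normalizer (Subgroup.zpowers v : Set Q) := by
  refine le_trans ?_ (Subgroup.centralizer_le_normalizer _)
  rw [Subgroup.zpowers_le, Subgroup.mem_centralizer_iff]
  intro w hw
  obtain ⟨i, rfl⟩ := Subgroup.mem_zpowers_iff.mp hw
  exact (h.zpow_right i).eq.symm

/-- A nonabelian `p`-group of exponent `p` has a nonabelian subgroup of order `p ^ 3`. -/
theorem exists_nonabelian_card_cube {P : Type*} [Group P] [Finite P] {p : ℕ} [Fact p.Prime]
    (hP : IsPGroup p P) (hexp : ∀ x : P, x ^ p = 1) (hnc : ¬ IsMulCommutative P) :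
    ∃ B : Subgroup P, Nat.card B = p ^ 3 ∧ ¬ IsMulCommutative B := by
  have hp : p.Prime := Fact.out
  set Z := Subgroup.center P with hZ
  obtain ⟨a0, ha0⟩ : ∃ a : P, a ∉ Z := by
    by_contra hcon
    push Not at hcon
    exact hnc ⟨⟨fun a b => ((Subgroup.mem_center_iff.mp (hcon a)) b).symm⟩⟩
  have hnt : Nontrivial (P ⧸ Z) :=
    ⟨⟨(a0 : P ⧸ Z), 1, fun h => ha0 ((QuotientGroup.eq_one_iff a0).mp h)⟩⟩
  have hPq : IsPGroup p (P ⧸ Z) := hP.to_quotient Z
  have hcnt : Nontrivial (Subgroup.center (P ⧸ Z)) := hPq.center_nontrivial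
  obtain ⟨⟨xb, hxbc⟩, hxb1⟩ := exists_ne (1 : Subgroup.center (P ⧸ Z))
  obtain ⟨x, rfl⟩ := QuotientGroup.mk_surjective xb
  have hxZ : x ∉ Z := by
    intro h
    apply hxb1
    exact Subtype.ext ((QuotientGroup.eq_one_iff x).mpr h)
  obtain ⟨y, hxy⟩ : ∃ y : P, y * x ≠ x * y := by
    by_contra hcon
    push Not at hcon
    exact hxZ (Subgroup.mem_center_iff.mpr hcon)
  set c := x * y * x⁻¹ * y⁻¹ with hc
  have hcZ : c ∈ Z := by
    rw [← QuotientGroup.eq_one_iff]
    have h1 := Subgroup.mem_center_iff.mp hxbc (y : P ⧸ Z)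
    have h2 : ((c : P) : P ⧸ Z) = (x : P ⧸ Z) * (y : P ⧸ Z) * (x : P ⧸ Z)⁻¹ * (y : P ⧸ Z)⁻¹ := rfl
    rw [h2, ← h1]; group
  have hc1 : c ≠ 1 := by
    intro h
    apply hxy
    have : x * y = c * (y * x) := by rw [hc]; group
    rw [this, h, one_mul]
  have hco : orderOf c = p := orderOf_eq_prime (hexp c) hc1
  set T := Subgroup.zpowers c with hT
  have hTZ : T ≤ Subgroup.center P := by rw [hT, Subgroup.zpowers_le]; exact hcZ
  have hTn : T.Normal := normal_of_le_center T hTZ
  have hTcard : Nat.card T = p := by rw [hT, Nat.card_zpowers, hco]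
  have hcomm : Commute ((x : P) : P ⧸ T) ((y : P) : P ⧸ T) := by
    have h1 : ((c : P) : P ⧸ T) = 1 := (QuotientGroup.eq_one_iff c).mpr (Subgroup.mem_zpowers c)
    have h2 : ((c : P) : P ⧸ T) = (x : P ⧸ T) * (y : P ⧸ T) * (x : P ⧸ T)⁻¹ * (y : P ⧸ T)⁻¹ := rfl
    rw [h2] at h1
    change (x : P ⧸ T) * (y : P ⧸ T) = (y : P ⧸ T) * (x : P ⧸ T)
    calc (x : P ⧸ T) * (y : P ⧸ T)
        = ((x : P ⧸ T) * (y : P ⧸ T) * (x : P ⧸ T)⁻¹ * (y : P ⧸ T)⁻¹) * ((y : P ⧸ T) * (x : P ⧸ T)) := by
          group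
      _ = (y : P ⧸ T) * (x : P ⧸ T) := by rw [h1, one_mul]
  have hle : ∀ g : P, Nat.card (Subgroup.zpowers ((g : P) : P ⧸ T)) ≤ p := by
    intro g
    rw [Nat.card_zpowers]
    apply Nat.le_of_dvd hp.pos
    apply orderOf_dvd_of_pow_eq_one
    rw [← QuotientGroup.mk_pow, hexp g]; rfl
  set S := Subgroup.zpowers ((x : P) : P ⧸ T) ⊔ Subgroup.zpowers ((y : P) : P ⧸ T) with hS
  have hScard : Nat.card S ≤ p * p := by
    have h1 := Cfsg.Agent.Lib.Helper12.card_sup_mul_card_inf' _ _
      (zpowers_le_normalizer_of_commute hcomm)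
    have h2 : 0 < Nat.card (Subgroup.zpowers ((x : P) : P ⧸ T) ⊓
      Subgroup.zpowers ((y : P) : P ⧸ T) : Subgroup (P ⧸ T)) := Nat.card_pos
    calc Nat.card S ≤ Nat.card S * Nat.card (Subgroup.zpowers ((x : P) : P ⧸ T) ⊓
          Subgroup.zpowers ((y : P) : P ⧸ T) : Subgroup (P ⧸ T)) := Nat.le_mul_of_pos_right _ h2
      _ = _ := h1
      _ ≤ p * p := Nat.mul_le_mul (hle x) (hle y)
  set B := S.comap (QuotientGroup.mk' T) with hB
  have hBcard : Nat.card B ≤ p ^ 3 := by
    rw [hB, Cfsg.Agent.Lib.Helper3.card_comap_mk', hTcard]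
    calc Nat.card S * p ≤ p * p * p := Nat.mul_le_mul_right _ hScard
      _ = p ^ 3 := by ring
  have hxB : x ∈ B := by
    rw [hB, Subgroup.mem_comap]
    exact (le_sup_left : _ ≤ S) (Subgroup.mem_zpowers _)
  have hyB : y ∈ B := by
    rw [hB, Subgroup.mem_comap]
    exact (le_sup_right : _ ≤ S) (Subgroup.mem_zpowers _)
  have hBnc : ¬ IsMulCommutative B := by
    intro h
    apply hxy
    exact congrArg Subtype.val (h.is_comm.comm (⟨y, hyB⟩ : B) ⟨x, hxB⟩)
  refine ⟨B, ?_, hBnc⟩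
  obtain ⟨j, hj⟩ := IsPGroup.iff_card.mp (hP.to_subgroup B)
  have hj3 : j ≤ 3 := by
    rw [hj] at hBcard
    exact (Nat.pow_le_pow_iff_right hp.one_lt).mp hBcard
  have hj2 : ¬ j ≤ 2 := fun h => hBnc (isMulCommutative_of_card_le_sq hj h)
  rw [hj]; congr 1; omega

/-- A `p`-group of exponent `p` and order at least `p ^ 4` has an abelian subgroup of order
`p ^ 3`. -/
theorem exists_abelian_card_cube {P : Type u} [Group P] [Finite P] {p : ℕ} [Fact p.Prime]
    (hP : IsPGroup p P) (hexp : ∀ x : P, x ^ p = 1) (hcard : p ^ 4 ∣ Nat.card P) :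
    ∃ A : Subgroup P, Nat.card A = p ^ 3 ∧ IsMulCommutative A := by
  have hp : p.Prime := Fact.out
  obtain ⟨E, -, hEn, hEcard⟩ := Cfsg.Agent.Lib.Helper3.exists_normal_le_card_eq (p := p) 2 P hP ⊤
    inferInstance (by rw [Subgroup.card_top]; exact (pow_dvd_pow p (by norm_num)).trans hcard)
  have hEcomm : IsMulCommutative E := IsPGroup.isMulCommutative_of_card_eq_prime_sq hEcard
  have hPcard : p ^ 4 ≤ Nat.card P := Nat.le_of_dvd Nat.card_pos hcard
  have hpow : p ^ 2 < p ^ 3 ∧ p ^ 3 < p ^ 4 :=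
    ⟨Nat.pow_lt_pow_right hp.one_lt (by norm_num), Nat.pow_lt_pow_right hp.one_lt (by norm_num)⟩
  have hexists : ∀ C : Subgroup P, p ^ 2 < Nat.card C → ∃ x ∈ C, x ∉ E := by
    intro C hC
    by_contra hcon
    push Not at hcon
    have := Subgroup.card_le_of_le (show C ≤ E from hcon)
    omega
  obtain ⟨x, hxE, hxc⟩ : ∃ x, x ∉ E ∧ ∀ e ∈ E, x * e = e * x := by
    by_cases hEc : E ≤ Subgroup.center P
    · obtain ⟨x, -, hx⟩ := hexists ⊤ (by rw [Subgroup.card_top]; omega)
      exact ⟨x, hx, fun e he => Subgroup.mem_center_iff.mp (hEc he) x⟩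
    · obtain ⟨e, heE, hec⟩ := SetLike.not_le_iff_exists.mp hEc
      set Z1 := E ⊓ Subgroup.center P with hZ1
      have hZ1c : Z1 ≤ Subgroup.center P := inf_le_right
      have hZ1n : Z1.Normal := normal_of_le_center Z1 hZ1c
      have hEne : E ≠ ⊥ := by
        rintro rfl
        rw [Subgroup.card_bot] at hEcard
        have := Nat.one_lt_pow (n := 2) (by norm_num) hp.one_lt
        omega
      have hZ1ne : Z1 ≠ ⊥ := Cfsg.Agent.Lib.Helper3.normal_inf_center_ne_bot' hP E hEne
      have hZ1card : Nat.card Z1 = p := by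
        have h1 : Nat.card Z1 ∣ p ^ 2 := hEcard ▸ Subgroup.card_dvd_of_le inf_le_left
        obtain ⟨k, hk, hk2⟩ := (Nat.dvd_prime_pow hp).mp h1
        interval_cases k
        · rw [pow_zero, Subgroup.card_eq_one] at hk2
          exact absurd hk2 hZ1ne
        · rw [hk2, pow_one]
        · exfalso
          have : Z1 = E := Subgroup.eq_of_le_of_card_ge inf_le_left (by rw [hk2, hEcard])
          exact hEc (this ▸ inf_le_right)
      have heZ1 : e ∉ Z1 := fun h => hec (hZ1c h)
      have hEeq : Z1 ⊔ Subgroup.zpowers e = E := by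
        apply Subgroup.eq_of_le_of_card_ge
        · exact sup_le inf_le_left (by rw [Subgroup.zpowers_le]; exact heE)
        · rw [Cfsg.Agent.Lib.Helper1.card_sup_zpowers_of_pow_mem hp Z1 e heZ1
            (by rw [hexp e]; exact one_mem _), hZ1card, hEcard, pow_two]
      have hidx := Cfsg.Agent.Lib.Helper67.relIndex_centralizer_eq' (Z := Z1) (L := ⊤) hZ1card
        (x := e) (by
          intro a _
          have h1 := commutator_central_of_normal_card_sq hP E hEcard e heE a
          have h2 : a * e * a⁻¹ * e⁻¹ = (e * a * e⁻¹ * a⁻¹)⁻¹ := by group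
          rw [h2]
          refine Z1.inv_mem ⟨?_, h1⟩
          have h3 : e * a * e⁻¹ * a⁻¹ = e * (a * e⁻¹ * a⁻¹) := by group
          rw [SetLike.mem_coe, h3]
          exact E.mul_mem heE (hEn.conj_mem _ (E.inv_mem heE) a))
        (fun z hz h _ => Subgroup.mem_center_iff.mp (hZ1c hz) h)
        (by
          by_contra hcon
          push Not at hcon
          exact hec (Subgroup.mem_center_iff.mpr (fun g => hcon g (Subgroup.mem_top g))))
      rw [top_inf_eq, Subgroup.relIndex_top_right] at hidx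
      have hCcard : p ^ 2 < Nat.card (Subgroup.centralizer ({e} : Set P)) := by
        have h1 := (Subgroup.centralizer ({e} : Set P)).card_mul_index
        rw [hidx] at h1
        have h2 : p ^ 4 = p ^ 3 * p := by ring
        have h3 : p ^ 3 ≤ Nat.card (Subgroup.centralizer ({e} : Set P)) := by
          by_contra hlt
          push Not at hlt
          have := Nat.mul_lt_mul_of_pos_right hlt hp.pos
          omega
        omega
      obtain ⟨x, hxC, hx⟩ := hexists _ hCcard
      refine ⟨x, hx, ?_⟩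
      intro e' he'
      rw [← hEeq, Subgroup.mem_sup_of_normal_left] at he'
      obtain ⟨u, hu, v, hv, rfl⟩ := he'
      obtain ⟨i, rfl⟩ := Subgroup.mem_zpowers_iff.mp hv
      have h1 : Commute x u := Subgroup.mem_center_iff.mp (hZ1c hu) x
      have h2 : Commute x e := (Subgroup.mem_centralizer_singleton_iff.mp hxC)
      exact (h1.mul_right (h2.zpow_right i)).eq
  refine ⟨E ⊔ Subgroup.zpowers x, ?_, ?_⟩
  · rw [Cfsg.Agent.Lib.Helper1.card_sup_zpowers_of_pow_mem hp E x hxE
      (by rw [hexp x]; exact one_mem _), hEcard]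
    ring
  · refine ⟨⟨?_⟩⟩
    rintro ⟨a, ha⟩ ⟨b, hb⟩
    apply Subtype.ext
    change a * b = b * a
    rw [Subgroup.mem_sup_of_normal_left] at ha hb
    obtain ⟨e1, he1, v1, hv1, rfl⟩ := ha
    obtain ⟨e2, he2, v2, hv2, rfl⟩ := hb
    obtain ⟨i, rfl⟩ := Subgroup.mem_zpowers_iff.mp hv1
    obtain ⟨j, rfl⟩ := Subgroup.mem_zpowers_iff.mp hv2
    have h12 : Commute e1 e2 := congrArg Subtype.val (hEcomm.is_comm.comm (⟨e1, he1⟩ : E) ⟨e2, he2⟩)
    have hx1 : Commute x e1 := hxc e1 he1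
    have hx2 : Commute x e2 := hxc e2 he2
    have hxx : Commute (x ^ i) (x ^ j) := (Commute.refl x).zpow_zpow i j
    exact ((h12.mul_right (hx1.zpow_left j).symm).mul_left
      ((hx2.zpow_left i).mul_right hxx)).eq

end Cfsg.Agent.Lib.Helper70
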