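import Mathlib

set_option autoImplicit false

namespace Cfsg.Agent.Lib.Helper70

/-- An element of `p`-power order lies in a normal Sylow `p`-subgroup. -/
theorem mem_normal_sylow {G : Type*} [Group G] [Finite G] {p : ℕ} [Fact p.Prime] (P : Sylow p G)
    (hP : (P : Subgroup G).Normal) {x : G} {k : ℕ} (hx : orderOf x = p ^ k) :
    x ∈ (P : Subgroup G) := by
  have hz : IsPGroup p (Subgroup.zpowers x) := by
    apply IsPGroup.of_card (n := k)
    rw [Nat.card_zpowers, hx]
  obtain ⟨Q, hQ⟩ := hz.exists_le_sylow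
  have := Sylow.unique_of_normal P hP
  have : Q = P := Subsingleton.elim _ _
  rw [← this]
  exact hQ (Subgroup.mem_zpowers x)

/-- A subgroup containing a Sylow `q`-subgroup for every prime `q` is the whole group. -/
theorem eq_top_of_sylow_le {G : Type*} [Group G] [Finite G] (H : Subgroup G)
    (h : ∀ q : ℕ, q.Prime → ∃ Q : Sylow q G, (Q : Subgroup G) ≤ H) : H = ⊤ := by
  apply Subgroup.eq_top_of_le_card
  apply Nat.le_of_dvd Nat.card_pos
  rw [← Nat.factorization_prime_le_iff_dvd Nat.card_pos.ne' Nat.card_pos.ne']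
  intro q hq
  have : Fact q.Prime := ⟨hq⟩
  obtain ⟨Q, hQ⟩ := h q hq
  have h1 : Nat.card (Q : Subgroup G) ∣ Nat.card H := Subgroup.card_dvd_of_le hQ
  rw [Sylow.card_eq_multiplicity] at h1
  exact (hq.pow_dvd_iff_le_factorization Nat.card_pos.ne').mp h1

/-- A subgroup containing all elements of prime power order is the whole group. -/
theorem eq_top_of_prime_pow_mem {G : Type*} [Group G] [Finite G] (H : Subgroup G)
    (h : ∀ q : ℕ, q.Prime → ∀ y : G, (∃ b : ℕ, orderOf y = q ^ b) → y ∈ H) : H = ⊤ := by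
  apply eq_top_of_sylow_le
  intro q hq
  have : Fact q.Prime := ⟨hq⟩
  obtain ⟨Q⟩ : Nonempty (Sylow q G) := inferInstance
  refine ⟨Q, fun y hy => h q hq y ?_⟩
  obtain ⟨k, hk⟩ := (IsPGroup.iff_orderOf.mp Q.2) ⟨y, hy⟩
  rw [Subgroup.orderOf_mk] at hk
  exact ⟨k, hk⟩

end Cfsg.Agent.Lib.Helper70
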