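import Mathlib

set_option autoImplicit false
open scoped Pointwise

namespace Cfsg.Agent.Lib.Helper70

variable {G : Type*} [Group G] [Finite G] {p : ℕ} [Fact p.Prime]

/-- The trivial intersection property of one Sylow subgroup gives it for all pairs. -/
theorem ti_pairs (P : Sylow p G)
    (hTI : ∀ g : G, g ∉ Subgroup.normalizer ((P : Subgroup G) : Set G) →
      (P : Subgroup G) ⊓ (MulAut.conj g • (P : Subgroup G)) = ⊥)
    (R₁ R₂ : Sylow p G) (hne : R₁ ≠ R₂) : (R₁ : Subgroup G) ⊓ (R₂ : Subgroup G) = ⊥ := by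
  obtain ⟨a, rfl⟩ := MulAction.exists_smul_eq G P R₁
  obtain ⟨b, rfl⟩ := MulAction.exists_smul_eq G P R₂
  have hn : a⁻¹ * b ∉ Subgroup.normalizer ((P : Subgroup G) : Set G) := by
    intro h
    have h' : (a⁻¹ * b) • P = P := Sylow.smul_eq_iff_mem_normalizer.mpr h
    apply hne
    rw [mul_smul, inv_smul_eq_iff] at h'
    exact h'.symm
  have h1 := hTI _ hn
  have h2 : MulAut.conj a • ((P : Subgroup G) ⊓ (MulAut.conj (a⁻¹ * b) • (P : Subgroup G))) = ⊥ := by
    rw [h1, Subgroup.smul_bot]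
  rw [Subgroup.smul_inf, smul_smul, ← map_mul, mul_inv_cancel_left] at h2
  exact h2

/-- Conversely the pairwise property gives the normalizer form. -/
theorem ti_of_pairs (h : ∀ R₁ R₂ : Sylow p G, R₁ ≠ R₂ → (R₁ : Subgroup G) ⊓ (R₂ : Subgroup G) = ⊥)
    (P : Sylow p G) (g : G) (hg : g ∉ Subgroup.normalizer ((P : Subgroup G) : Set G)) :
    (P : Subgroup G) ⊓ (MulAut.conj g • (P : Subgroup G)) = ⊥ := by
  have hne : P ≠ g • P := fun h' => hg (Sylow.smul_eq_iff_mem_normalizer.mp h'.symm)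
  exact h P (g • P) hne

end Cfsg.Agent.Lib.Helper70
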